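import Cfsg.Agent.Lib.PackMatGroup
import Cfsg.Agent.Lib.PackArr

/-! # Coset tables with a deduction certificate: an upper bound for the index of a subgroup -/

set_option autoImplicit false

namespace Cfsg.Agent.SP.PosB.HN

open Cfsg.Agent.Lib.PackMat (force force_eq)
open Cfsg.Agent.Lib.PackMatGroup (evG evG_nil evG_cons evG_append get)
open Cfsg.Agent.Lib.PackArr (fld allLt allLt_spec)

/-- The certificate. -/
structure Cert where
  /-- number of cosets -/
  n : ℕ
  /-- number of letters -/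
  nl : ℕ
  /-- number of letters in the subgroup -/
  ns : ℕ
  /-- coset table (width 11) -/
  T : List ℕ
  /-- ranks (width 13) -/
  R : List ℕ
  /-- deductions (width 11) -/
  D : List ℕ
  /-- parents (width 11) -/
  par : ℕ
  /-- letters of the tree (width 3) -/
  let_ : ℕ
  /-- relators -/
  rels : List (List ℕ)

namespace Cert

variable (c : Cert)

/-- table -/
def tb (x j : ℕ) : ℕ := fld 11 (get c.T x) j
/-- rank -/
def rk (x j : ℕ) : ℕ := fld 13 (get c.R x) j

/-- one step through a known edge; `n` is the value for failure -/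
noncomputable def step (r x j : ℕ) : ℕ :=
  force j fun j => bif Nat.blt j c.n then bif Nat.blt x c.nl then bif Nat.blt (c.rk x j) r then c.tb x j
    else c.n else c.n else c.n

/-- trace of a word -/
noncomputable def tr (r : ℕ) (w : List ℕ) (i : ℕ) : ℕ :=
  List.rec i (fun x _ ih => c.step r x ih) w

/-- trace of the first `k` letters of a word -/
noncomputable def trN (r : ℕ) (w : List ℕ) (i : ℕ) : ℕ → ℕ :=
  List.rec (motive := fun _ => ℕ → ℕ) (fun _ => i)
    (fun x _ ih k => Nat.rec i (fun k' _ => c.step r x (ih k')) k) w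

/-- the rest of a word -/
noncomputable def dropN (w : List ℕ) : ℕ → List ℕ :=
  List.rec (motive := fun _ => ℕ → List ℕ) (fun _ => [])
    (fun x w ih k => Nat.rec (x :: w) (fun k' _ => ih k') k) w

/-- entry of a list of words -/
noncomputable def getW (L : List (List ℕ)) : ℕ → List ℕ :=
  List.rec (motive := fun _ => ℕ → List ℕ) (fun _ => [])
    (fun a _ ih i => Nat.rec a (fun j _ => ih j) i) L

/-- relator step -/
noncomputable def chkR (x j i : ℕ) (w : List ℕ) (p : ℕ) : Bool :=
  force (c.rk x j) fun r =>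
    List.rec false (fun y v _ => bif Nat.beq y x then Nat.beq (c.tr r v (c.trN r w i p)) j else false) (dropN w p)

/-- the check of one edge -/
noncomputable def chkE (x j : ℕ) : Bool :=
  force (c.tb x j) fun i => force (fld 11 (get c.D x) j) fun d =>
    bif Nat.blt i c.n then
      bif Nat.beq d 0 then
        bif Nat.blt j i then bif Nat.beq (fld 11 c.par i) j then Nat.beq (fld 3 c.let_ i) x else false else false
      else bif Nat.beq d 1 then
        bif Nat.beq j 0 then bif Nat.beq i 0 then Nat.blt x c.ns else false else false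
      else force (Nat.mod d 32) fun p => c.chkR x j i (getW c.rels (Nat.sub (Nat.div d 32) 1)) p
    else false

/-- the check of the edges of one letter -/
noncomputable def chkL (x : ℕ) : Bool := allLt 11 c.n (c.chkE x)

theorem tr_nil (r i : ℕ) : c.tr r [] i = i := rfl
theorem tr_cons (r x : ℕ) (w : List ℕ) (i : ℕ) : c.tr r (x :: w) i = c.step r x (c.tr r w i) := rfl

theorem trN_eq (r : ℕ) (w : List ℕ) (i k : ℕ) : c.trN r w i k = c.tr r (w.take k) i := by
  induction w generalizing k with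
  | nil => rw [List.take_nil]; rfl
  | cons x w ih =>
    cases k with
    | zero => rfl
    | succ k => rw [List.take_succ_cons, tr_cons, ← ih]; rfl

theorem dropN_eq (w : List ℕ) (k : ℕ) : dropN w k = w.drop k := by
  induction w generalizing k with
  | nil => rw [List.drop_nil]; rfl
  | cons x w ih =>
    cases k with
    | zero => rfl
    | succ k => rw [List.drop_succ_cons, ← ih]; rfl

theorem getW_mem (L : List (List ℕ)) (i : ℕ) : getW L i = [] ∨ getW L i ∈ L := by
  induction L generalizing i with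
  | nil => exact Or.inl rfl
  | cons a L ih =>
    cases i with
    | zero => exact Or.inr List.mem_cons_self
    | succ i =>
      rcases ih i with h | h
      · exact Or.inl h
      · exact Or.inr (List.mem_cons_of_mem _ h)

theorem step_spec {r x j : ℕ} (h : c.step r x j < c.n) :
    j < c.n ∧ x < c.nl ∧ c.rk x j < r ∧ c.step r x j = c.tb x j := by
  unfold step at h ⊢
  rw [force_eq] at h ⊢
  simp only [Bool.cond_eq_ite, Nat.blt_eq] at h ⊢
  split_ifs at h ⊢ with h1 h2 h3
  · exact ⟨h1, h2, h3, rfl⟩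
  all_goals exact absurd h (lt_irrefl _)

variable {G : Type*} [Group G] {X : Type*} [MulAction G X] (LG : List G) (x0 : X)

/-- the points given by the tree -/
noncomputable def pt (k : ℕ) : X :=
  if _h : fld 11 c.par k < k then LG.getD (fld 3 c.let_ k) 1 • pt (fld 11 c.par k) else x0
termination_by k

theorem pt_eq (k : ℕ) : c.pt LG x0 k =
    if fld 11 c.par k < k then LG.getD (fld 3 c.let_ k) 1 • c.pt LG x0 (fld 11 c.par k) else x0 := by
  rw [pt]; rfl

theorem pt_zero : c.pt LG x0 0 = x0 := by rw [pt_eq, if_neg (Nat.not_lt_zero _)]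

theorem tr_spec {r : ℕ} (H : ∀ x < c.nl, ∀ j < c.n, c.rk x j < r → LG.getD x 1 • c.pt LG x0 j = c.pt LG x0 (c.tb x j))
    (w : List ℕ) (i : ℕ) (h : c.tr r w i < c.n) :
    i < c.n ∧ evG LG w • c.pt LG x0 i = c.pt LG x0 (c.tr r w i) := by
  induction w with
  | nil => exact ⟨h, by rw [evG_nil, one_smul, tr_nil]⟩
  | cons x w ih =>
    rw [tr_cons] at h ⊢
    obtain ⟨h1, h2, h3, h4⟩ := c.step_spec h
    obtain ⟨k1, k2⟩ := ih h1
    exact ⟨k1, by rw [evG_cons, mul_smul, k2, h4, H x h2 _ h1 h3]⟩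

theorem edge_spec (hrel : ∀ w ∈ c.rels, evG LG w = 1) (hs : ∀ x < c.ns, LG.getD x 1 • x0 = x0)
    {x j : ℕ} (hj : j < c.n) (h : c.chkE x j = true)
    (H : ∀ y < c.nl, ∀ k < c.n, c.rk y k < c.rk x j → LG.getD y 1 • c.pt LG x0 k = c.pt LG x0 (c.tb y k)) :
    c.tb x j < c.n ∧ LG.getD x 1 • c.pt LG x0 j = c.pt LG x0 (c.tb x j) := by
  unfold chkE at h
  simp only [force_eq, Bool.cond_eq_ite, Nat.blt_eq, Nat.beq_eq] at h
  split_ifs at h with h1 h2 h3 h4 h5 h6 h7
  · refine ⟨h1, ?_⟩
    have h8 := Nat.eq_of_beq_eq_true h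
    rw [c.pt_eq LG x0 (c.tb x j), h4, if_pos h3, h8]
  · refine ⟨h1, ?_⟩
    rw [h7, h6, pt_zero]
    exact hs x (by simpa [Nat.blt_eq] using h)
  · refine ⟨h1, ?_⟩
    generalize Nat.mod (fld 11 (get c.D x) j) 32 = p at h
    have hw := getW_mem c.rels (Nat.sub (Nat.div (fld 11 (get c.D x) j) 32) 1)
    generalize getW c.rels (Nat.sub (Nat.div (fld 11 (get c.D x) j) 32) 1) = w at h hw
    have hw1 : evG LG w = 1 := by
      rcases hw with rfl | hw
      · rfl
      · exact hrel w hw
    unfold chkR at h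
    rw [force_eq, dropN_eq] at h
    have e := List.take_append_drop p w
    cases hd : w.drop p with
    | nil => rw [hd] at h; exact absurd h (by simp)
    | cons y v =>
      rw [hd] at h e
      have h' : (bif Nat.beq y x then Nat.beq (c.tr (c.rk x j) v (c.trN (c.rk x j) w (c.tb x j) p)) j
        else false) = true := h
      simp only [Bool.cond_eq_ite, Nat.beq_eq] at h'
      split_ifs at h' with k1
      have k2 := Nat.eq_of_beq_eq_true h'
      rw [trN_eq] at k2
      obtain ⟨k3, k4⟩ := c.tr_spec LG x0 H v _ (k2.symm ▸ hj)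
      obtain ⟨-, k5⟩ := c.tr_spec LG x0 H _ _ k3
      rw [k2, ← k5] at k4
      rw [← e, evG_append, evG_cons, k1] at hw1
      rw [← k4, ← mul_smul, ← mul_smul]
      have : LG.getD x 1 * evG LG v * evG LG (w.take p) = 1 := by
        rw [mul_eq_one_comm]; exact hw1
      rw [this, one_smul]

theorem all_edges (hrel : ∀ w ∈ c.rels, evG LG w = 1) (hs : ∀ x < c.ns, LG.getD x 1 • x0 = x0)
    (h : ∀ x < c.nl, ∀ j < c.n, c.chkE x j = true) :
    ∀ x < c.nl, ∀ j < c.n, c.tb x j < c.n ∧ LG.getD x 1 • c.pt LG x0 j = c.pt LG x0 (c.tb x j) := by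
  have key : ∀ r, ∀ x < c.nl, ∀ j < c.n, c.rk x j < r →
      LG.getD x 1 • c.pt LG x0 j = c.pt LG x0 (c.tb x j) := by
    intro r
    induction r with
    | zero => intro x _ j _ h; exact absurd h (Nat.not_lt_zero _)
    | succ r ih =>
      intro x hx j hj hr
      exact (c.edge_spec LG x0 hrel hs hj (h x hx j hj) fun y hy k hk hlt => ih y hy k hk (by omega)).2
  intro x hx j hj
  exact c.edge_spec LG x0 hrel hs hj (h x hx j hj) fun y hy k hk hlt => key _ y hy k hk hlt

end Cert

/-- the subgroup generated by the first `k` letters -/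
def gen {G : Type*} [Group G] (LG : List G) (k : ℕ) : Subgroup G :=
  Subgroup.closure {g | ∃ x < k, LG.getD x 1 = g}

theorem letter_mem {G : Type*} [Group G] (LG : List G) {k x : ℕ} (hx : x < k) : LG.getD x 1 ∈ gen LG k :=
  Subgroup.subset_closure ⟨x, hx, rfl⟩

theorem gen_induction {G : Type*} [Group G] (LG : List G) {k : ℕ}
    (hinv : ∀ x < k, ∃ y < k, LG.getD y 1 = (LG.getD x 1)⁻¹) {P : G → Prop} (h1 : P 1)
    (hm : ∀ x < k, ∀ g, P g → P (LG.getD x 1 * g)) {g : G} (hg : g ∈ gen LG k) : P g := by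
  induction hg using Subgroup.closure_induction_left with
  | one => exact h1
  | mul_left x hx y _ ih =>
    obtain ⟨i, hi, rfl⟩ := hx
    exact hm i hi y ih
  | inv_mul_cancel x hx y _ ih =>
    obtain ⟨i, hi, rfl⟩ := hx
    obtain ⟨j, hj, e⟩ := hinv i hi
    rw [← e]
    exact hm j hj y ih

/-- **The bound**. -/
theorem Cert.card_le (c : Cert) {G : Type*} [Group G] (LG : List G) (K : Subgroup G) [Finite K]
    (hrel : ∀ w ∈ c.rels, evG LG w = 1) (hs : ∀ x < c.ns, LG.getD x 1 ∈ K)
    (hinv : ∀ x < c.nl, ∃ y < c.nl, LG.getD y 1 = (LG.getD x 1)⁻¹) (hn : 0 < c.n) (hn' : c.n ≤ 2 ^ 11)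
    (h : ∀ x < c.nl, c.chkL x = true) :
    Finite (gen LG c.nl) ∧ Nat.card (gen LG c.nl) ≤ c.n * Nat.card K := by
  let x0 : G ⧸ K := ((1 : G) : G ⧸ K)
  have hs' : ∀ x < c.ns, LG.getD x 1 • x0 = x0 := by
    intro x hx
    show ((LG.getD x 1 * 1 : G) : G ⧸ K) = ((1 : G) : G ⧸ K)
    rw [QuotientGroup.eq]
    simpa using hs x hx
  have he := c.all_edges LG x0 hrel hs' fun x hx => allLt_spec (h x hx) hn'
  have key : ∀ g : gen LG c.nl, ∃ k : Fin c.n, ((g : G) : G ⧸ K) = c.pt LG x0 k := by
    intro g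
    refine gen_induction LG hinv (P := fun g : G => ∃ k : Fin c.n, (g : G ⧸ K) = c.pt LG x0 k) ?_ ?_ g.2
    · exact ⟨⟨0, hn⟩, (c.pt_zero LG x0).symm⟩
    · rintro x hx g ⟨k, hk⟩
      obtain ⟨h1, h2⟩ := he x hx k k.2
      refine ⟨⟨_, h1⟩, ?_⟩
      rw [← h2, ← hk]; rfl
  choose f hf using key
  have hm : ∀ g : gen LG c.nl, (c.pt LG x0 (f g)).out⁻¹ * (g : G) ∈ K := by
    intro g
    rw [← QuotientGroup.eq, QuotientGroup.out_eq', hf]
  let F : gen LG c.nl → Fin c.n × K := fun g => (f g, ⟨_, hm g⟩)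
  have hF : Function.Injective F := by
    intro g g' e
    have e1 : f g = f g' := congrArg Prod.fst e
    have e2 : (c.pt LG x0 (f g)).out⁻¹ * (g : G) = (c.pt LG x0 (f g')).out⁻¹ * (g' : G) :=
      congrArg Subtype.val (congrArg Prod.snd e)
    rw [e1] at e2
    exact Subtype.ext (mul_left_cancel e2)
  refine ⟨Finite.of_injective F hF, ?_⟩
  have := Nat.card_le_card_of_injective F hF
  rwa [Nat.card_prod, Nat.card_fin] at this

end Cfsg.Agent.SP.PosB.HN
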