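import Cfsg.Agent.HN.Red
import Cfsg.Agent.Lib.PackArr
import Cfsg.Agent.SP.Pos.HN.MatData

/-! # HN: checks with the matrices of degree 133 -/

set_option autoImplicit false

namespace Cfsg.Agent.SP.PosB.HN

open Cfsg.Agent.Lib.PackMat Cfsg.Agent.Lib.PackMatGroup Cfsg.Agent.Lib.PackMatMul Cfsg.Agent.HN.RepData
open Cfsg.Agent.HN.Red (hgood)
open Cfsg.Agent.HN.Rep (one_lt)

/-- the last result of a program -/
noncomputable def chkSlp (ws : List (ℕ × List ℕ)) (L : List ℕ) (D : ℕ) : Bool :=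
  bif okS ws L.length then withM C fun f => runS f ws L fun L' => bif Nat.blt 0 L'.length then Nat.beq (get L' 0) D
    else false else false

/-- inverse matrices -/
noncomputable def chkInv (A B : ℕ) : Bool :=
  bif redC C B then withM C fun f => Nat.beq (f A B) (oneM C) else false

/-- a relator -/
noncomputable def chkRel (L : List ℕ) (i : ℕ) (w : List ℕ) : Bool :=
  bif Nat.blt i L.length then bif okW L.length w then
    withM C fun f => Nat.beq (evL f L w (get L i)) (oneM C) else false else false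

/-- the trace of a packed matrix -/
noncomputable def trM (A : ℕ) : ℕ :=
  Nat.mod (Cfsg.Agent.Lib.PackArr.sumR 8 0 fun i => Cfsg.Agent.Lib.PackArr.fld 17 A (Nat.mul 134 i)) 31

/-- the trace of a word -/
noncomputable def chkTr (L : List ℕ) (i : ℕ) (w : List ℕ) (t : ℕ) : Bool :=
  bif Nat.blt i L.length then bif okW L.length w then
    withM C fun f => force (evL f L w (get L i)) fun A => Nat.beq (trM A) t else false else false

theorem codes_slp {LG : List (U C)} {L : List ℕ} (h : List.Forall₂ (CodesR C) LG L) {ws : List (ℕ × List ℕ)} {D : ℕ}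
    (hc : chkSlp ws L D = true) : CodesR C ((runG ws LG).getD 0 1) D := by
  unfold chkSlp at hc
  simp only [Bool.cond_eq_ite, withM_eq] at hc
  split_ifs at hc with h1
  obtain ⟨L', h2, h3⟩ := runS_sound hgood h h1 hc
  simp only [Nat.blt_eq] at h3
  split_ifs at h3 with h4
  rw [← Nat.eq_of_beq_eq_true h3]
  exact codesR_get h2 h4

theorem codes_inv {g : U C} {A B : ℕ} (h : CodesR C g A) (hc : chkInv A B = true) : CodesR C g⁻¹ B := by
  unfold chkInv at hc
  simp only [Bool.cond_eq_ite, withM_eq] at hc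
  split_ifs at hc with h1
  have hB := redG_of_check hgood h1
  refine ⟨hB, ?_⟩
  have h2 := (mulM_spec hgood h.1 hB).2
  rw [Nat.eq_of_beq_eq_true hc, ← (codesR_one hgood one_lt).2, ← h.2] at h2
  exact Units.inv_eq_of_mul_eq_one_right h2.symm

theorem rel_spec {LG : List (U C)} {L : List ℕ} (h : List.Forall₂ (CodesR C) LG L) {i : ℕ} {w : List ℕ}
    (hc : chkRel L i w = true) : evG LG (i :: w) = 1 := by
  unfold chkRel at hc
  simp only [Bool.cond_eq_ite, withM_eq, Nat.blt_eq] at hc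
  split_ifs at hc with h1 h2
  exact (codesR_ev hgood h h1 h2).eq (codesR_one hgood one_lt) (Nat.eq_of_beq_eq_true hc)

theorem trM_spec {g : U C} {A : ℕ} (h : CodesR C g A) : Matrix.trace (g : M C) = (trM A : ZMod 31) := by
  rw [h.2]
  unfold trM
  rw [Cfsg.Agent.Lib.PackArr.sumR_eq]
  have e : ∀ a : ℕ, ((Nat.mod a 31 : ℕ) : ZMod 31) = (a : ZMod 31) := fun a => ZMod.natCast_mod a 31
  rw [e, Nat.cast_sum, Matrix.trace]
  have e1 : ∀ i : Fin C.n, Matrix.diag (mat C A) i =
      ((Cfsg.Agent.Lib.PackArr.fld 17 A (Nat.mul 134 (0 + i)) : ℕ) : ZMod 31) := by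
    intro i
    rw [Matrix.diag_apply, mat_def, dg_def, Cfsg.Agent.Lib.PackArr.fld_eq_div]
    have : (i : ℕ) + C.n * i = Nat.mul 134 (0 + i) := by
      show (i : ℕ) + 133 * i = 134 * (0 + i); omega
    rw [this]
  rw [Finset.sum_congr rfl fun i _ => e1 i,
    Fin.sum_univ_eq_sum_range (fun i => ((Cfsg.Agent.Lib.PackArr.fld 17 A (Nat.mul 134 (0 + i)) : ℕ) : ZMod 31))]
  refine Finset.sum_subset (Finset.range_subset_range.2 (by decide)) fun i _ hi => ?_
  rw [Cfsg.Agent.Lib.PackArr.fld_of_lt (n := C.n * C.n) h.1.1, Nat.cast_zero]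
  rw [Finset.mem_range] at hi
  show 133 * 133 ≤ 134 * (0 + i)
  have : ¬ i < 133 := hi
  omega

theorem tr_spec {LG : List (U C)} {L : List ℕ} (h : List.Forall₂ (CodesR C) LG L) {i : ℕ} {w : List ℕ} {t : ℕ}
    (hc : chkTr L i w t = true) : Matrix.trace (evG LG (i :: w) : U C).1 = (t : ZMod 31) := by
  unfold chkTr at hc
  simp only [Bool.cond_eq_ite, withM_eq, Nat.blt_eq, force_eq] at hc
  split_ifs at hc with h1 h2
  rw [← Nat.eq_of_beq_eq_true hc]
  exact trM_spec (codesR_ev hgood h h1 h2)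

/-- program for `b` -/
def wsB : List (ℕ × List ℕ) := [(2, [2, 4, 3, 6, 4])]
/-- program for `z` -/
def wsZ : List (ℕ × List ℕ) := [(0, [0, 0]), (5, [6, 5, 5, 6, 2, 0, 0, 3, 6, 4, 4, 6, 4])]
/-- program for `a` -/
def wsA : List (ℕ × List ℕ) := [(0, [0]), (0, [0]), (2, [3]), (1, [0]), (3, [1, 3, 0, 3, 4, 0, 1, 0, 2, 0])]

/-- the packed matrices of `a, a⁻¹, b, b⁻¹, z` -/
def LM : List ℕ := [MA, MAI, MB, MBI, MZ]

end Cfsg.Agent.SP.PosB.HN
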